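import Mathlib

/-!
# Numerical estimates for the class number of permutation groups
-/

set_option autoImplicit false

namespace Cfsg.Agent.Comb

/-- `√3`. -/
noncomputable def cc : ℝ := Real.sqrt 3

/-- The weight of an orbit of length `m`. -/
noncomputable def ww (m : ℕ) : ℝ := if m = 2 then 2 else cc ^ (m - 1)

/-- The branching constant of an orbit of length `m`. -/
noncomputable def bb (m : ℕ) : ℝ := if m ≤ 2 then 1 else (cc + 1) / 2

theorem cc_sq : cc * cc = 3 := Real.mul_self_sqrt (by norm_num)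

theorem cc_pos : 0 < cc := Real.sqrt_pos.2 (by norm_num)

theorem cc_lb : 1.732 < cc := by nlinarith [cc_sq, cc_pos]

theorem cc_ub : cc < 1.7321 := by nlinarith [cc_sq, cc_pos]

theorem ww_pos (m : ℕ) : 0 < ww m := by
  unfold ww
  split_ifs
  · norm_num
  · exact pow_pos cc_pos _

theorem one_le_bb (m : ℕ) : 1 ≤ bb m := by
  unfold bb
  split_ifs
  · exact le_rfl
  · linarith [cc_lb]

theorem bb_pos (m : ℕ) : 0 < bb m := zero_lt_one.trans_le (one_le_bb m)

@[simp] theorem ww_zero : ww 0 = 1 := by simp [ww]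
@[simp] theorem ww_one : ww 1 = 1 := by simp [ww]
@[simp] theorem ww_two : ww 2 = 2 := by simp [ww]
@[simp] theorem bb_one : bb 1 = 1 := by simp [bb]
@[simp] theorem bb_two : bb 2 = 1 := by simp [bb]

theorem ww_add_three (k : ℕ) : ww (k + 3) = 3 * cc ^ k := by
  rw [ww, if_neg (by omega), show k + 3 - 1 = k + 2 from rfl, pow_add, sq, cc_sq, mul_comm]

theorem bb_add_three (k : ℕ) : bb (k + 3) = (cc + 1) / 2 := by
  rw [bb, if_neg (by omega)]

theorem one_le_cc_pow (k : ℕ) : 1 ≤ cc ^ k := one_le_pow₀ (by linarith [cc_lb])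

theorem pow_le_ww (k : ℕ) : cc ^ k ≤ ww (k + 1) := by
  unfold ww
  split_ifs with h
  · obtain rfl : k = 1 := by omega
    linarith [cc_ub]
  · exact le_rfl

theorem ww_le (k : ℕ) : ww (k + 1) ≤ 2 / 3 * cc ^ (k + 1) := by
  unfold ww
  split_ifs with h
  · rw [h, sq, cc_sq]; norm_num
  · rw [Nat.add_sub_cancel, pow_succ]
    nlinarith [one_le_cc_pow k, cc_lb]

/-- The invariants of a non-empty family of orbits of total length `N`, with weight `W` and
weighted branching sum `U`. -/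
structure TInv (N : ℕ) (W U : ℝ) : Prop where
  pos : 0 < N
  w_pos : 0 < W
  u_pos : 0 < U
  w_le : W ≤ ww N
  add_le : W + U ≤ (cc + 1) / 2 * cc ^ N
  add_le' : U + (cc + 1) / 2 * W ≤ (3 + cc) / 3 * cc ^ N
  u_le : U ≤ (cc + 1) / 3 * cc ^ N
  one : N = 1 → W = 1 ∧ U = 1
  two : N = 2 → U = 2
  root : 1 + U ≤ ww (N + 1)

theorem tinv_single {m : ℕ} (hm : 0 < m) : TInv m (ww m) (bb m * ww m) := by
  have h1 := cc_sq
  have h2 := cc_lb
  have h3 := cc_ub
  obtain rfl | rfl | ⟨k, rfl⟩ : m = 1 ∨ m = 2 ∨ ∃ k, m = k + 3 := by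
    rcases m with _ | _ | _ | k
    · omega
    · simp
    · simp
    · exact Or.inr (Or.inr ⟨k, rfl⟩)
  · constructor <;> simp <;> nlinarith
  · have : ww 3 = 3 := by simpa using ww_add_three 0
    constructor <;> simp [sq, h1, this] <;> nlinarith
  · have h4 : ww (k + 3 + 1) = 3 * cc * cc ^ k := by
      rw [show k + 3 + 1 = k + 1 + 3 by ring, ww_add_three]; ring
    have h5 : cc ^ (k + 3) = 3 * cc * cc ^ k := by
      rw [← h1]; ring
    have h6 := one_le_cc_pow k
    rw [ww_add_three, bb_add_three]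
    refine ⟨hm, by positivity, by positivity, (ww_add_three k).ge, ?_, ?_, ?_, by omega, by omega,
      ?_⟩
    all_goals (first | rw [h5] | rw [h4])
    all_goals generalize cc ^ k = F at *
    · have : (cc + 1) / 2 * (3 * cc * F) = (3 * (cc * cc) + 3 * cc) / 2 * F := by ring
      rw [this, h1]; nlinarith
    · have : (3 + cc) / 3 * (3 * cc * F) = (cc * cc + 3 * cc) * F := by ring
      rw [this, h1]; nlinarith
    · have : (cc + 1) / 3 * (3 * cc * F) = (cc * cc + cc) * F := by ring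
      rw [this, h1]; nlinarith
    · nlinarith

theorem TInv.w_le' {N : ℕ} {W U : ℝ} (h : TInv N W U) : W ≤ 2 / 3 * cc ^ N := by
  obtain ⟨N, rfl⟩ : ∃ k, N = k + 1 := ⟨N - 1, by have := h.pos; omega⟩
  exact h.w_le.trans (ww_le N)

theorem TInv.w_step {N m : ℕ} {W U : ℝ} (h : TInv N W U) (hm : 0 < m) :
    ww m * W ≤ ww (m + N) := by
  obtain ⟨m, rfl⟩ : ∃ k, m = k + 1 := ⟨m - 1, by omega⟩
  have b1 := h.w_le'
  obtain ⟨N, rfl⟩ : ∃ k, N = k + 1 := ⟨N - 1, by have := h.pos; omega⟩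
  refine le_trans ?_ (pow_le_ww (m + 1 + N))
  refine (mul_le_mul (ww_le m) b1 h.w_pos.le (by have := cc_pos; positivity)).trans ?_
  have : 2 / 3 * cc ^ (m + 1) * (2 / 3 * cc ^ (N + 1)) = 4 / 9 * cc * cc ^ (m + 1 + N) := by ring
  rw [this]
  exact mul_le_of_le_one_left (pow_pos cc_pos _).le (by linarith [cc_ub])

theorem three_le_cc_pow {N : ℕ} (h : 2 ≤ N) : 3 ≤ cc ^ N := by
  obtain ⟨k, rfl⟩ : ∃ k, N = k + 2 := ⟨N - 2, by omega⟩
  rw [pow_add, sq, cc_sq]; linarith [one_le_cc_pow k]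

theorem five_le_cc_pow {N : ℕ} (h : 3 ≤ N) : 5.196 ≤ cc ^ N := by
  obtain ⟨k, rfl⟩ : ∃ k, N = k + 1 := ⟨N - 1, by omega⟩
  rw [pow_succ]
  nlinarith [three_le_cc_pow (N := k) (by omega), cc_lb]

theorem TInv.step_one {N : ℕ} {W U : ℝ} (h : TInv N W U) : TInv (1 + N) W (U + W) := by
  have b1 := h.w_le'
  have c3 := h.w_step one_pos
  obtain ⟨hN, hW, hU, a1, a2, a3, a4, a5, a6, a7⟩ := h
  have e : cc ^ (1 + N) = cc * cc ^ N := by ring
  have hE : 0 < cc ^ N := pow_pos cc_pos _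
  have h2 := mul_lt_mul_of_pos_right cc_lb hE
  have h3 := mul_lt_mul_of_pos_right cc_ub hE
  refine ⟨by omega, hW, by positivity, by simpa using c3, ?_, ?_, ?_, by omega, fun h => ?_,
    le_trans ?_ (pow_le_ww _)⟩
  · have : (cc + 1) / 2 * (cc * cc ^ N) = (cc * cc + cc) / 2 * cc ^ N := by ring
    rw [e, this, cc_sq]; linarith
  · have : (3 + cc) / 3 * (cc * cc ^ N) = (cc * cc + 3 * cc) / 3 * cc ^ N := by ring
    rw [e, this, cc_sq]; linarith
  · have : (cc + 1) / 3 * (cc * cc ^ N) = (cc * cc + cc) / 3 * cc ^ N := by ring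
    rw [e, this, cc_sq]; linarith
  · obtain ⟨rfl, rfl⟩ := a5 (by omega); norm_num
  · by_cases hN0 : N = 1
    · obtain ⟨rfl, rfl⟩ := a5 hN0
      subst hN0
      simp only [Nat.reduceAdd, sq, cc_sq]; norm_num
    · have := three_le_cc_pow (N := N) (by omega)
      rw [e]; linarith

theorem TInv.step_two {N : ℕ} {W U : ℝ} (h : TInv N W U) :
    TInv (2 + N) (2 * W) (2 * U + 2 * W) := by
  have b1 := h.w_le'
  have c3 := h.w_step two_pos
  obtain ⟨hN, hW, hU, a1, a2, a3, a4, a5, a6, a7⟩ := h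
  have e : cc ^ (2 + N) = 3 * cc ^ N := by rw [← cc_sq]; ring
  have hE : 0 < cc ^ N := pow_pos cc_pos _
  have h2 := mul_lt_mul_of_pos_right cc_lb hE
  have h3 := mul_lt_mul_of_pos_right cc_ub hE
  refine ⟨by omega, by positivity, by positivity, by simpa using c3, ?_, ?_, ?_, by omega,
    by omega, le_trans ?_ (pow_le_ww _)⟩
  · rw [e]; linarith
  · rw [e]; linarith
  · rw [e]; linarith
  · rw [e]
    rcases N with _ | _ | _ | N
    · omega
    · obtain ⟨rfl, rfl⟩ := a5 rfl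
      simp only [zero_add, pow_one]; linarith [cc_lb]
    · obtain rfl := a6 rfl
      simp only [zero_add, Nat.reduceAdd, ww_two] at a1
      simp only [zero_add, Nat.reduceAdd, sq, cc_sq]; linarith
    · have := five_le_cc_pow (N := N + 1 + 1 + 1) (by omega)
      linarith

theorem TInv.step_big {N : ℕ} {W U : ℝ} (h : TInv N W U) (k : ℕ) :
    TInv (k + 3 + N) (3 * cc ^ k * W) (3 * cc ^ k * U + (cc + 1) / 2 * (3 * cc ^ k) * W) := by
  have b1 := h.w_le'
  have c3 := h.w_step (m := k + 3) (by omega)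
  obtain ⟨hN, hW, hU, a1, a2, a3, a4, a5, a6, a7⟩ := h
  have e : cc ^ (k + 3 + N) = 3 * cc ^ k * (cc * cc ^ N) := by rw [← cc_sq]; ring
  have hE : 0 < cc ^ N := pow_pos cc_pos _
  have h2 := mul_lt_mul_of_pos_right cc_lb hE
  have h3 := mul_lt_mul_of_pos_right cc_ub hE
  have hF := one_le_cc_pow k
  have hF' : 0 ≤ 3 * cc ^ k := by linarith
  have hc := cc_pos
  have b2 : (cc + 1) / 2 * W ≤ (cc + 1) / 2 * (2 / 3 * cc ^ N) :=
    mul_le_mul_of_nonneg_left b1 (by positivity)
  refine ⟨by omega, by positivity, by positivity, by rwa [ww_add_three] at c3, ?_, ?_, ?_,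
    by omega, by omega, le_trans ?_ (pow_le_ww _)⟩
  · have h4 : W + U + (cc + 1) / 2 * W ≤ (cc + 1) / 2 * (cc * cc ^ N) := by
      have : (cc + 1) / 2 * (cc * cc ^ N) = (cc * cc + cc) / 2 * cc ^ N := by ring
      rw [this, cc_sq]; linarith
    rw [e]; linarith [mul_le_mul_of_nonneg_left h4 hF']
  · have h4 : U + (cc + 1) / 2 * W + (cc + 1) / 2 * W ≤ (3 + cc) / 3 * (cc * cc ^ N) := by
      have : (3 + cc) / 3 * (cc * cc ^ N) = (cc * cc + 3 * cc) / 3 * cc ^ N := by ring
      rw [this, cc_sq]; linarith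
    rw [e]; linarith [mul_le_mul_of_nonneg_left h4 hF']
  · have h4 : U + (cc + 1) / 2 * W ≤ (cc + 1) / 3 * (cc * cc ^ N) := by
      have : (cc + 1) / 3 * (cc * cc ^ N) = (cc * cc + cc) / 3 * cc ^ N := by ring
      rw [this, cc_sq]; linarith
    rw [e]; linarith [mul_le_mul_of_nonneg_left h4 hF']
  · have h4 : U + (cc + 1) / 2 * W + 1 / 3 ≤ cc * cc ^ N := by
      by_cases hN0 : N = 1
      · obtain ⟨rfl, rfl⟩ := a5 hN0
        subst hN0
        simp only [pow_one, cc_sq]
        linarith [cc_ub]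
      · have := three_le_cc_pow (N := N) (by omega)
        linarith
    rw [e]; linarith [mul_le_mul_of_nonneg_left h4 hF']

theorem TInv.step {N m : ℕ} {W U : ℝ} (h : TInv N W U) (hm : 0 < m) :
    TInv (m + N) (ww m * W) (ww m * U + bb m * ww m * W) := by
  rcases m with _ | _ | _ | k
  · omega
  · simpa using h.step_one
  · simpa using h.step_two
  · rw [ww_add_three, bb_add_three]
    exact h.step_big k

/-- The closing case. -/
theorem TInv.closing {N : ℕ} {W U : ℝ} (h : TInv N W U) :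
    W + U ≤ bb (N + 1) * ww (N + 1) := by
  rcases N with _ | _ | N
  · exact absurd h.pos (by omega)
  · obtain ⟨rfl, rfl⟩ := h.one rfl
    norm_num
  · refine h.add_le.trans (le_of_eq ?_)
    rw [bb_add_three, ww_add_three, ← cc_sq]; ring

/-- The non-closing case. -/
theorem TInv.nonclosing {N : ℕ} {W U W' : ℝ} (h : TInv (N + 1) W U) (hW' : W' ≤ ww N) :
    U * W' ≤ bb (N + 1) * ww (N + 1) * ww (N + 1) := by
  refine (mul_le_mul_of_nonneg_left hW' h.u_pos.le).trans ?_
  rcases N with _ | _ | N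
  · obtain ⟨rfl, rfl⟩ := h.one rfl
    norm_num
  · obtain rfl := h.two rfl
    norm_num
  · refine (mul_le_mul h.u_le (ww_le _) (ww_pos _).le (by have := cc_pos; positivity)).trans ?_
    rw [bb_add_three, ww_add_three]
    have h1 : cc ^ (N + 1 + 1 + 1) = 3 * cc * cc ^ N := by rw [← cc_sq]; ring
    have h2 : cc ^ (N + 1 + 1) = 3 * cc ^ N := by rw [← cc_sq]; ring
    rw [h1, h2]
    have h3 := one_le_cc_pow N
    generalize cc ^ N = F at *
    have h4 : (cc + 1) / 3 * (3 * cc * F) * (2 / 3 * (3 * F)) = (cc + 1) * (F * F) * (2 * cc) := by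
      ring
    have h5 : (cc + 1) / 2 * (3 * F) * (3 * F) = (cc + 1) * (F * F) * (9 / 2) := by ring
    rw [h4, h5]
    have := cc_pos
    exact mul_le_mul_of_nonneg_left (by linarith [cc_ub]) (by positivity)

end Cfsg.Agent.Comb
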