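import Mathlib
import Cfsg.Agent.Lib.Comb.TreeNum
import Cfsg.Agent.Lib.Cls.Count

/-!
# The class number of a permutation group

A permutation group of degree `n ≥ 3` has at most `3 ^ ((n - 1) / 2)` conjugacy classes.  The
classes are counted by following the cycle of a point along the chain of point stabilizers.
-/

set_option autoImplicit false
set_option linter.unusedSectionVars false

namespace Cfsg.Agent.Comb

open Subgroup Finset MulAction
open scoped Classical

section Conj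

variable {Γ : Type*} [Group Γ] [Fintype Γ]

/-- The length of the orbit of `x` under conjugation by `D`. -/
noncomputable def csz (D : Subgroup Γ) (x : Γ) : ℕ := (centralizer ({x} : Set Γ)).relIndex D

/-- The orbit of `x` under conjugation by `D`. -/
noncomputable def corb (D : Subgroup Γ) (x : Γ) : Finset Γ :=
  univ.filter fun y => y ∈ Cls.conjOrbit D x

/-- The number of orbits of `D` on `X` under conjugation. -/
noncomputable def TT (D : Subgroup Γ) (X : Finset Γ) : ℝ := ∑ x ∈ X, (csz D x : ℝ)⁻¹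

/-- The left coset `g D` as a finite set. -/
noncomputable def cos (g : Γ) (D : Subgroup Γ) : Finset Γ := univ.filter fun x => g⁻¹ * x ∈ D

theorem mem_cos {g x : Γ} {D : Subgroup Γ} : x ∈ cos g D ↔ g⁻¹ * x ∈ D := by simp [cos]

theorem mem_corb {D : Subgroup Γ} {x y : Γ} : y ∈ corb D x ↔ ∃ d ∈ D, d * x * d⁻¹ = y := by
  rw [corb, mem_filter]
  exact ⟨fun h => h.2, fun h => ⟨mem_univ _, h⟩⟩

theorem csz_pos (D : Subgroup Γ) (x : Γ) : 0 < csz D x :=
  Nat.pos_of_ne_zero index_ne_zero_of_finite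

theorem card_mul_csz (D : Subgroup Γ) (x : Γ) :
    Nat.card ↥(D ⊓ centralizer ({x} : Set Γ)) * csz D x = Nat.card D := by
  rw [inf_comm]; exact Core.card_inf_mul_relIndex _ _

theorem card_corb (D : Subgroup Γ) (x : Γ) : #(corb D x) = csz D x := by
  rw [csz, ← Cls.ncard_conjOrbit, ← Set.ncard_coe_finset]
  congr 1
  ext y
  simp [corb]

theorem csz_of_mem_corb {D : Subgroup Γ} {x y : Γ} (h : y ∈ corb D x) : csz D y = csz D x := by
  have h1 := card_mul_csz D y
  rw [Cls.card_inf_centralizer_of_mem_conjOrbit (mem_filter.1 h).2, ← card_mul_csz D x] at h1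
  exact Nat.eq_of_mul_eq_mul_left Nat.card_pos h1

theorem TT_corb (D : Subgroup Γ) (x : Γ) : TT D (corb D x) = 1 := by
  rw [TT, sum_congr rfl fun y hy => by rw [csz_of_mem_corb hy], sum_const, card_corb,
    nsmul_eq_mul, mul_inv_cancel₀ (by exact_mod_cast (csz_pos D x).ne')]

theorem TT_mono (D : Subgroup Γ) {X Y : Finset Γ} (h : X ⊆ Y) : TT D X ≤ TT D Y :=
  sum_le_sum_of_subset_of_nonneg h fun _ _ _ => by positivity

theorem TT_le_TT {H D : Subgroup Γ} (hDH : D ≤ H) {X Y : Finset Γ}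
    (hX : ∀ d ∈ D, ∀ x ∈ X, d * x * d⁻¹ ∈ X) (hY : ∀ y ∈ Y, ∃ h ∈ H, h * y * h⁻¹ ∈ X) :
    TT H Y ≤ TT D X := by
  have h1 : ∀ y ∈ Y, 1 ≤ TT D (X.filter fun x => x ∈ corb H y) := fun y hy => by
    obtain ⟨h, hh, hx⟩ := hY y hy
    rw [← TT_corb D (h * y * h⁻¹)]
    refine TT_mono D fun z hz => ?_
    obtain ⟨d, hd, rfl⟩ := mem_corb.1 hz
    exact mem_filter.2 ⟨hX d hd _ hx, mem_corb.2 ⟨d * h, H.mul_mem (hDH hd) hh, by group⟩⟩
  have h2 : ∀ x, TT H (Y.filter fun y => x ∈ corb H y) ≤ 1 := fun x => by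
    rw [← TT_corb H x]
    refine TT_mono H fun z hz => ?_
    obtain ⟨d, hd, rfl⟩ := mem_corb.1 (mem_filter.1 hz).2
    exact mem_corb.2 ⟨d⁻¹, H.inv_mem hd, by group⟩
  calc TT H Y ≤ ∑ y ∈ Y, (csz H y : ℝ)⁻¹ * TT D (X.filter fun x => x ∈ corb H y) :=
        sum_le_sum fun y hy => le_mul_of_one_le_right (by positivity) (h1 y hy)
    _ = ∑ x ∈ X, (csz D x : ℝ)⁻¹ * TT H (Y.filter fun y => x ∈ corb H y) := by
        simp only [TT, sum_filter, mul_sum]
        rw [sum_comm]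
        refine sum_congr rfl fun x _ => sum_congr rfl fun y _ => ?_
        split_ifs
        · ring
        · simp
    _ ≤ TT D X := sum_le_sum fun x _ => mul_le_of_le_one_right (by positivity) (h2 x)

theorem TT_eq (D : Subgroup Γ) (X : Finset Γ) :
    TT D X = (∑ d ∈ cos 1 D, (#(X.filter fun x => d * x = x * d) : ℝ)) / Nat.card D := by
  have h0 : (Nat.card D : ℝ) ≠ 0 := by exact_mod_cast Nat.card_pos.ne'
  rw [eq_div_iff h0, TT, sum_mul]
  simp only [card_filter, Nat.cast_sum]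
  rw [sum_comm]
  refine sum_congr rfl fun x _ => ?_
  rw [← card_mul_csz D x, ← Nat.cast_sum, ← card_filter, Nat.cast_mul, mul_comm,
    mul_inv_cancel_right₀ (by exact_mod_cast (csz_pos D x).ne'), Nat.cast_inj]
  refine Nat.subtype_card _ fun d => ?_
  simp [mem_cos, mem_centralizer_singleton_iff]

theorem TT_cos_le (D' D : Subgroup Γ) (g : Γ) : TT D' (cos g D) ≤ TT D' (cos 1 D) := by
  rw [TT_eq, TT_eq]
  refine div_le_div_of_nonneg_right (sum_le_sum fun d _ => ?_) (by positivity)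
  rcases ((cos g D).filter fun x => d * x = x * d).eq_empty_or_nonempty with h | ⟨x₀, h⟩
  · rw [h]; simp
  · obtain ⟨h1, h2⟩ := mem_filter.1 h
    refine Nat.cast_le.2 (card_le_card_of_injOn (fun x => x₀⁻¹ * x) (fun x hx => ?_)
      fun x _ y _ e => by simpa using e)
    obtain ⟨h3, h4⟩ := mem_filter.1 hx
    refine mem_filter.2 ⟨mem_cos.2 ?_, ?_⟩
    · have := D.mul_mem (D.inv_mem (mem_cos.1 h1)) (mem_cos.1 h3)
      simpa [mul_assoc] using this
    · exact ((show Commute d x₀ from h2).inv_right.mul_right (show Commute d x from h4)).eq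

theorem card_conjClasses_eq : (Nat.card (ConjClasses Γ) : ℝ) = TT (⊤ : Subgroup Γ) (cos 1 ⊤) := by
  have h1 : cos (1 : Γ) ⊤ = univ := by ext; simp [mem_cos]
  rw [h1, TT, ← sum_fiberwise univ ConjClasses.mk, Nat.card_eq_fintype_card, ← card_univ,
    card_eq_sum_ones, Nat.cast_sum]
  refine sum_congr rfl fun c _ => ?_
  obtain ⟨x, rfl⟩ := ConjClasses.mk_surjective c
  rw [Nat.cast_one, ← TT_corb ⊤ x, TT]
  congr 1
  ext y
  simp only [mem_corb, mem_top, true_and, mem_filter, mem_univ, ConjClasses.mk_eq_mk_iff_isConj]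
  rw [isConj_comm, isConj_iff]

end Conj

section Orbits

variable {Γ Ω : Type*} [Group Γ] [Fintype Γ] [MulAction Γ Ω] [Fintype Ω]

/-- The length of the orbit of `β` under `D`. -/
noncomputable def osz (D : Subgroup Γ) (β : Ω) : ℕ := (stabilizer Γ β).relIndex D

/-- The orbit of `β` under `D`. -/
noncomputable def orb (D : Subgroup Γ) (β : Ω) : Finset Ω :=
  univ.filter fun γ => ∃ d ∈ D, d • β = γ

/-- The product of the weights of the orbits of `D` in `S`. -/
noncomputable def WS (D : Subgroup Γ) (S : Finset Ω) : ℝ :=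
  ∏ β ∈ S, ww (osz D β) ^ ((osz D β : ℝ)⁻¹)

/-- The sum of the branching constants of the orbits of `D` in `S`. -/
noncomputable def AS (D : Subgroup Γ) (S : Finset Ω) : ℝ :=
  ∑ β ∈ S, bb (osz D β) * (osz D β : ℝ)⁻¹

/-- `S` is invariant under `D`. -/
def OInv (D : Subgroup Γ) (S : Finset Ω) : Prop := ∀ d ∈ D, ∀ β ∈ S, d • β ∈ S

theorem mem_orb {D : Subgroup Γ} {β γ : Ω} : γ ∈ orb D β ↔ ∃ d ∈ D, d • β = γ := by simp [orb]

theorem self_mem_orb (D : Subgroup Γ) (β : Ω) : β ∈ orb D β := mem_orb.2 ⟨1, D.one_mem, by simp⟩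

theorem osz_pos (D : Subgroup Γ) (β : Ω) : 0 < osz D β :=
  Nat.pos_of_ne_zero index_ne_zero_of_finite

theorem card_mul_osz (D : Subgroup Γ) (β : Ω) :
    Nat.card ↥(D ⊓ stabilizer Γ β) * osz D β = Nat.card D := by
  rw [inf_comm]; exact Core.card_inf_mul_relIndex _ _

theorem osz_eq_one {D : Subgroup Γ} {β : Ω} : osz D β = 1 ↔ ∀ d ∈ D, d • β = β :=
  relIndex_eq_one

theorem card_orb (D : Subgroup Γ) (β : Ω) : #(orb D β) = osz D β := by
  have h : stabilizer D β = (stabilizer Γ β).subgroupOf D := by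
    ext r; rfl
  rw [osz, relIndex, ← h, index_stabilizer, ← Set.ncard_coe_finset]
  congr 1
  ext γ
  simp only [mem_coe, mem_orb]
  exact ⟨fun ⟨d, hd, e⟩ => ⟨⟨d, hd⟩, e⟩, fun ⟨d, e⟩ => ⟨d, d.2, e⟩⟩

theorem orb_of_mem {D : Subgroup Γ} {β γ : Ω} (h : γ ∈ orb D β) : orb D γ = orb D β := by
  obtain ⟨d, hd, rfl⟩ := mem_orb.1 h
  ext δ
  simp only [mem_orb]
  exact ⟨fun ⟨e, he, h⟩ => ⟨e * d, D.mul_mem he hd, by rw [mul_smul, h]⟩,
    fun ⟨e, he, h⟩ => ⟨e * d⁻¹, D.mul_mem he (D.inv_mem hd), by rw [mul_smul, inv_smul_smul, h]⟩⟩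

theorem osz_of_mem {D : Subgroup Γ} {β γ : Ω} (h : γ ∈ orb D β) : osz D γ = osz D β := by
  rw [← card_orb, orb_of_mem h, card_orb]

theorem oInv_orb (D : Subgroup Γ) (β : Ω) : OInv D (orb D β) := fun d hd γ h => by
  rw [← orb_of_mem h]; exact mem_orb.2 ⟨d, hd, rfl⟩

theorem OInv.mono {D K : Subgroup Γ} {S : Finset Ω} (h : OInv K S) (hDK : D ≤ K) : OInv D S :=
  fun d hd => h d (hDK hd)

theorem OInv.sdiff {D : Subgroup Γ} {S R : Finset Ω} (hS : OInv D S) (hR : OInv D R) :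
    OInv D (S \ R) := fun d hd β h => by
  rw [mem_sdiff] at h ⊢
  exact ⟨hS d hd β h.1, fun h' => h.2 (by simpa using hR d⁻¹ (D.inv_mem hd) _ h')⟩

theorem OInv.orb_subset {D : Subgroup Γ} {S : Finset Ω} (hS : OInv D S) {β : Ω} (h : β ∈ S) :
    orb D β ⊆ S := fun γ hγ => by
  obtain ⟨d, hd, rfl⟩ := mem_orb.1 hγ
  exact hS d hd β h

theorem oInv_univ (D : Subgroup Γ) : OInv D (univ : Finset Ω) := fun _ _ _ _ => mem_univ _

theorem oInv_single {D : Subgroup Γ} {a : Ω} (h : ∀ d ∈ D, d • a = a) : OInv D {a} :=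
  fun d hd β hβ => by rw [mem_singleton.1 hβ, h d hd]; exact mem_singleton_self a

theorem OInv.induction {D : Subgroup Γ} {P : Finset Ω → Prop} (h0 : P ∅)
    (h1 : ∀ (S : Finset Ω) (β : Ω), OInv D S → β ∈ S → P (S \ orb D β) → P S) {S : Finset Ω}
    (hS : OInv D S) : P S := by
  induction S using Finset.strongInduction with
  | H S ih =>
    rcases S.eq_empty_or_nonempty with rfl | ⟨β, hβ⟩
    · exact h0
    · exact h1 S β hS hβ (ih _ (sdiff_ssubset (hS.orb_subset hβ) ⟨β, self_mem_orb D β⟩)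
        (hS.sdiff (oInv_orb D β)))

theorem WS_pos (D : Subgroup Γ) (S : Finset Ω) : 0 < WS D S :=
  prod_pos fun _ _ => Real.rpow_pos_of_pos (ww_pos _) _

theorem AS_nonneg (D : Subgroup Γ) (S : Finset Ω) : 0 ≤ AS D S :=
  sum_nonneg fun β _ => by have := bb_pos (osz D β); positivity

theorem WS_orb (D : Subgroup Γ) (β : Ω) : WS D (orb D β) = ww (osz D β) := by
  rw [WS, prod_congr rfl fun γ hγ => by rw [osz_of_mem hγ], prod_const, card_orb,
    Real.rpow_inv_natCast_pow (ww_pos _).le (osz_pos D β).ne']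

theorem AS_orb (D : Subgroup Γ) (β : Ω) : AS D (orb D β) = bb (osz D β) := by
  rw [AS, sum_congr rfl fun γ hγ => by rw [osz_of_mem hγ], sum_const, card_orb, nsmul_eq_mul,
    mul_comm, inv_mul_cancel_right₀ (by exact_mod_cast (osz_pos D β).ne')]

theorem WS_sdiff (D : Subgroup Γ) {S R : Finset Ω} (h : R ⊆ S) :
    WS D S = WS D R * WS D (S \ R) := by rw [WS, ← prod_sdiff h, mul_comm]; rfl

theorem AS_sdiff (D : Subgroup Γ) {S R : Finset Ω} (h : R ⊆ S) :
    AS D S = AS D R + AS D (S \ R) := by rw [AS, ← sum_sdiff h, add_comm]; rfl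

theorem WS_of_fixed {D : Subgroup Γ} {S : Finset Ω} (h : ∀ β ∈ S, ∀ d ∈ D, d • β = β) :
    WS D S = 1 :=
  prod_eq_one fun β hβ => by rw [osz_eq_one.2 (h β hβ)]; simp

theorem OInv.tinv {D : Subgroup Γ} {S : Finset Ω} (hS : OInv D S) :
    S = ∅ ∨ TInv #S (WS D S) (WS D S * AS D S) := by
  refine hS.induction (P := fun S => S = ∅ ∨ TInv #S (WS D S) (WS D S * AS D S)) (Or.inl rfl) ?_
  intro S β hS hβ ih
  have h1 := hS.orb_subset hβ
  right
  rcases ih with ih | ih
  · obtain rfl : S = orb D β := (sdiff_eq_empty_iff_subset.1 ih).antisymm h1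
    rw [WS_orb, AS_orb, card_orb, mul_comm]
    exact tinv_single (osz_pos D β)
  · have := ih.step (osz_pos D β)
    rw [← card_sdiff_add_card_eq_card h1, WS_sdiff D h1, AS_sdiff D h1, WS_orb, AS_orb, card_orb,
      add_comm]
    convert this using 1
    ring

theorem OInv.WS_le_ww {D : Subgroup Γ} {S : Finset Ω} (hS : OInv D S) : WS D S ≤ ww #S := by
  rcases hS.tinv with rfl | h
  · simp [WS]
  · exact h.w_le

theorem OInv.WS_le {D K : Subgroup Γ} (hDK : D ≤ K) {S : Finset Ω} (hS : OInv K S) :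
    WS D S ≤ WS K S := by
  refine hS.induction (P := fun S => WS D S ≤ WS K S) (by simp [WS]) ?_
  intro S β hS hβ ih
  have h1 := hS.orb_subset hβ
  rw [WS_sdiff D h1, WS_sdiff K h1, WS_orb, ← card_orb]
  exact mul_le_mul ((oInv_orb K β).mono hDK).WS_le_ww ih (WS_pos _ _).le (ww_pos _).le

/-- The estimate at an inner node of the tree. -/
theorem WS_mul_AS_le {D K : Subgroup Γ} (hDK : D ≤ K) {a β : Ω} (ha : ∀ d ∈ D, d • a = a)
    (hs : osz K a = osz K β) :
    WS D (univ : Finset Ω) * AS D (orb K β) ≤ bb (osz K β) * WS K (univ : Finset Ω) := by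
  have hS := oInv_orb K β
  have hO := oInv_orb K a
  have h1 : ∀ {S : Finset Ω}, a ∈ S → WS D S = WS D (S \ {a}) := fun h => by
    rw [WS_sdiff D (singleton_subset_iff.2 h), WS_of_fixed (by simpa using ha), one_mul]
  have h2 : #(orb K a \ {a}) + 1 = osz K β := by
    rw [← hs, ← card_orb,
      ← card_sdiff_add_card_eq_card (singleton_subset_iff.2 (self_mem_orb K a)), card_singleton]
  have hOa := (hO.mono hDK).sdiff (oInv_single ha)
  by_cases h : a ∈ orb K β
  · rw [WS_sdiff D (subset_univ (orb K β)), WS_sdiff K (subset_univ (orb K β)), WS_orb,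
      mul_right_comm, ← mul_assoc]
    refine mul_le_mul ?_ (((oInv_univ K).sdiff hS).WS_le hDK) (WS_pos _ _).le
      (mul_pos (bb_pos _) (ww_pos _)).le
    have h3 : AS D {a} = 1 := by simp [AS, osz_eq_one.2 ha]
    rw [h1 h, AS_sdiff D (singleton_subset_iff.2 h), h3, ← orb_of_mem h, ← h2]
    rcases hOa.tinv with h4 | h4
    · rw [h4]; simp [WS, AS]
    · rw [mul_add, mul_one]; exact h4.closing
  · have h3 : orb K a ⊆ univ \ orb K β := ((oInv_univ K).sdiff hS).orb_subset (by simpa using h)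
    rw [WS_sdiff D (subset_univ (orb K β)), WS_sdiff K (subset_univ (orb K β)), WS_orb,
      WS_sdiff D h3, WS_sdiff K h3, WS_orb, hs]
    have h4 := ((oInv_univ K).sdiff hS).sdiff hO |>.WS_le hDK
    rcases (hS.mono hDK).tinv with h5 | h5
    · exact absurd h5 (nonempty_iff_ne_empty.1 ⟨β, self_mem_orb K β⟩)
    · rw [card_orb, ← h2] at h5
      have h6 := h5.nonclosing hOa.WS_le_ww
      rw [h2, ← h1 (self_mem_orb K a)] at h6
      calc _ = WS D (orb K β) * AS D (orb K β) * WS D (orb K a) *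
            WS D ((univ \ orb K β) \ orb K a) := by ring
        _ ≤ bb (osz K β) * ww (osz K β) * ww (osz K β) * WS K ((univ \ orb K β) \ orb K a) :=
          mul_le_mul h6 h4 (WS_pos _ _).le
            (mul_pos (mul_pos (bb_pos _) (ww_pos _)) (ww_pos _)).le
        _ = _ := by ring

theorem osz_map_conj (H : Subgroup Γ) (g : Γ) (β : Ω) :
    osz (H.map (MulAut.conj g).toMonoidHom) (g • β) = osz H β := by
  rw [osz, stabilizer_smul_eq_stabilizer_map_conj,
    relIndex_map_map_of_injective _ _ (MulAut.conj g).injective, osz]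

theorem WS_map_conj (H : Subgroup Γ) (g : Γ) :
    WS (H.map (MulAut.conj g).toMonoidHom) (univ : Finset Ω) = WS H (univ : Finset Ω) := by
  rw [WS, WS, ← Equiv.prod_comp (toPerm g)]
  simp only [toPerm_apply, osz_map_conj]

/-- Decomposition according to the image of a point fixed by `D`. -/
theorem TT_le_sum {D : Subgroup Γ} {α : Ω} (hα : ∀ d ∈ D, d • α = α) {X : Finset Γ}
    {S : Finset Ω} (hS : ∀ x ∈ X, x • α ∈ S) {W : ℝ} (hW : 0 ≤ W)
    (h : ∀ x ∈ X, TT (D ⊓ stabilizer Γ (x • α)) (X.filter fun y => y • α = x • α) ≤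
      bb (osz D (x • α)) * W) : TT D X ≤ W * AS D S := by
  rw [TT, ← sum_fiberwise_of_maps_to hS, AS, mul_sum]
  refine sum_le_sum fun β _ => ?_
  rcases (X.filter fun y => y • α = β).eq_empty_or_nonempty with h0 | ⟨x, hx⟩
  · rw [h0, sum_empty]
    have := bb_pos (osz D β)
    positivity
  · obtain ⟨hx', rfl⟩ := mem_filter.1 hx
    have h1 : ∀ y ∈ X.filter fun y => y • α = x • α, (csz D y : ℝ)⁻¹ =
        (csz (D ⊓ stabilizer Γ (x • α)) y : ℝ)⁻¹ * (osz D (x • α) : ℝ)⁻¹ := fun y hy => by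
      have h2 : centralizer ({y} : Set Γ) ⊓ D =
          centralizer ({y} : Set Γ) ⊓ stabilizer Γ (x • α) ⊓ D := by
        refine le_antisymm (fun c hc => ⟨⟨hc.1, ?_⟩, hc.2⟩) fun c hc => ⟨hc.1.1, hc.2⟩
        change c • x • α = x • α
        rw [← (mem_filter.1 hy).2, ← mul_smul, mem_centralizer_singleton_iff.1 hc.1, mul_smul,
          hα c hc.2]
      rw [← mul_inv, ← Nat.cast_mul, csz, csz, osz, inf_comm D, relIndex_inf_mul_relIndex,
        ← inf_relIndex_right (_ ⊓ _), ← h2, inf_relIndex_right]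
    rw [sum_congr rfl h1, ← sum_mul, ← mul_assoc, mul_comm W]
    exact mul_le_mul_of_nonneg_right (h x hx') (by positivity)

/-- The pointwise stabilizer of `Δ` in `G`. -/
def fx (G : Subgroup Γ) (Δ : Finset Ω) : Subgroup Γ where
  carrier := {g | g ∈ G ∧ ∀ δ ∈ Δ, g • δ = δ}
  one_mem' := ⟨G.one_mem, by simp⟩
  mul_mem' := fun ha hb => ⟨G.mul_mem ha.1 hb.1, fun δ h => by rw [mul_smul, hb.2 δ h, ha.2 δ h]⟩
  inv_mem' := fun ha => ⟨G.inv_mem ha.1, fun δ h => by rw [inv_smul_eq_iff, ha.2 δ h]⟩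

theorem mem_fx {G : Subgroup Γ} {Δ : Finset Ω} {g : Γ} :
    g ∈ fx G Δ ↔ g ∈ G ∧ ∀ δ ∈ Δ, g • δ = δ := Iff.rfl

theorem fx_insert (G : Subgroup Γ) (Δ : Finset Ω) (α : Ω) :
    fx G (insert α Δ) = fx G Δ ⊓ stabilizer Γ α := by
  ext g
  simp only [mem_fx, mem_insert, forall_eq_or_imp, Subgroup.mem_inf, mem_stabilizer_iff]
  tauto

theorem fx_image {G : Subgroup Γ} (Δ : Finset Ω) {g : Γ} (hg : g ∈ G) :
    fx G (Δ.image (g • ·)) = (fx G Δ).map (MulAut.conj g).toMonoidHom := by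
  ext k
  rw [Subgroup.mem_map_equiv, MulAut.conj_symm_apply]
  simp only [mem_fx, forall_mem_image, mul_smul, inv_smul_eq_iff]
  rw [G.mul_mem_cancel_right hg, G.mul_mem_cancel_left (G.inv_mem hg)]

/-- The estimate for a node of the tree. -/
theorem TT_node (G : Subgroup Γ) (n : ℕ) : ∀ (Δ : Finset Ω) (α : Ω) (g : Γ),
    Fintype.card Ω - #Δ = n → α ∉ Δ → g ∈ G → (∀ δ ∈ Δ, g • δ ∈ insert α Δ) →
    (∀ Δ' : Finset Ω, insert α Δ ⊆ Δ' →
      TT (fx G Δ') (cos 1 (fx G Δ')) ≤ WS (fx G Δ') (univ : Finset Ω)) →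
    TT (fx G (insert α Δ)) (cos g (fx G Δ)) ≤
      bb (osz (fx G Δ) α) * WS (fx G Δ) (univ : Finset Ω) := by
  induction n using Nat.strong_induction_on with
  | _ n ih =>
  intro Δ α g hn hα hg hΔ hA
  have hsub : Δ.image (g • ·) ⊆ insert α Δ := image_subset_iff.2 hΔ
  have hcard : #(Δ.image (g • ·)) = #Δ := card_image_of_injective _ (MulAction.injective g)
  obtain ⟨a, ha⟩ : ∃ a, insert α Δ = insert a (Δ.image (g • ·)) := by
    have h1 : #(insert α Δ \ Δ.image (g • ·)) = 1 := by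
      rw [card_sdiff_of_subset hsub, card_insert_of_notMem hα, hcard, Nat.add_sub_cancel_left]
    obtain ⟨a, ha⟩ := card_eq_one.1 h1
    exact ⟨a, by rw [← sdiff_union_of_subset hsub, ha]; rfl⟩
  set H := fx G Δ with hH
  set D := fx G (insert α Δ) with hD
  set K := fx G (Δ.image (g • ·)) with hK
  have hKH : K = H.map (MulAut.conj g).toMonoidHom := fx_image Δ hg
  have hDH : D = H ⊓ stabilizer Γ α := fx_insert G Δ α
  have hDK : D = K ⊓ stabilizer Γ a := by rw [hD, ha, fx_insert]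
  have h1 : osz K (g • α) = osz H α := by rw [hKH, osz_map_conj]
  have h2 : osz K a = osz H α := by
    have h3 := card_mul_osz K a
    have h4 := card_mul_osz H α
    rw [← hDK, hKH, card_map_of_injective (MulAut.conj g).injective, ← hKH] at h3
    rw [← hDH, ← h3] at h4
    exact (Nat.eq_of_mul_eq_mul_left Nat.card_pos h4).symm
  rw [← h1, ← WS_map_conj H g, ← hKH]
  refine le_trans ?_ (WS_mul_AS_le (hDK ▸ inf_le_left : D ≤ K) (a := a)
    (fun d hd => (hDK ▸ hd : d ∈ K ⊓ stabilizer Γ a).2) (h2.trans h1.symm))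
  refine TT_le_sum (D := D) (α := α) (fun d hd => hd.2 α (mem_insert_self _ _)) (fun x hx => ?_)
    (WS_pos _ _).le fun x hx => ?_
  · refine mem_orb.2 ⟨x * g⁻¹, ?_, by simp [mul_smul]⟩
    rw [hKH, Subgroup.mem_map_equiv, MulAut.conj_symm_apply]
    simpa [mul_assoc] using mem_cos.1 hx
  · have hx' := mem_cos.1 hx
    have hxG : x ∈ G := (G.mul_mem_cancel_left (G.inv_mem hg)).1 hx'.1
    have hxΔ : ∀ δ ∈ Δ, x • δ = g • δ := fun δ hδ => by
      have := hx'.2 δ hδ
      rwa [mul_smul, inv_smul_eq_iff] at this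
    have h3 : ((cos g H).filter fun y => y • α = x • α) ⊆ cos x D := fun y hy => by
      obtain ⟨h4, h5⟩ := mem_filter.1 hy
      rw [mem_cos, hDH]
      refine ⟨?_, ?_⟩
      · have := H.mul_mem (H.inv_mem hx') (mem_cos.1 h4)
        simpa [mul_assoc] using this
      · change (x⁻¹ * y) • α = α
        rw [mul_smul, h5, inv_smul_smul]
    refine (TT_mono _ h3).trans ?_
    by_cases hβ : x • α ∈ insert α Δ
    · have h4 : D ≤ stabilizer Γ (x • α) := fun d hd => hd.2 _ hβ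
      rw [inf_eq_left.2 h4, osz_eq_one.2 h4, bb_one, one_mul]
      exact (TT_cos_le _ _ _).trans (hA _ subset_rfl)
    · rw [hD, ← fx_insert]
      refine ih _ ?_ _ _ _ rfl hβ hxG (fun δ hδ => ?_)
        fun Δ' h => hA Δ' ((subset_insert _ _).trans h)
      · have := card_le_univ (insert α Δ)
        rw [card_insert_of_notMem hα] at this ⊢
        omega
      · rcases mem_insert.1 hδ with rfl | h4
        · exact mem_insert_self _ _
        · rw [hxΔ δ h4]
          exact mem_insert_of_mem (hΔ δ h4)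

theorem TT_le_WS [FaithfulSMul Γ Ω] (G : Subgroup Γ) :
    TT G (cos 1 G) ≤ WS G (univ : Finset Ω) := by
  induction G using Core.subgroup_induction_lt with
  | h G ih =>
  by_cases h0 : ∀ α : Ω, ∀ g ∈ G, g • α = α
  · have h1 : cos 1 G = {1} := by
      ext g
      rw [mem_cos, inv_one, one_mul, mem_singleton]
      exact ⟨fun h => eq_of_smul_eq_smul (α := Ω) fun α => by rw [h0 α g h, one_smul],
        fun h => h ▸ G.one_mem⟩
    rw [WS_of_fixed fun β _ => h0 β, h1, TT, sum_singleton]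
    exact inv_le_one_of_one_le₀ (by exact_mod_cast csz_pos G 1)
  push Not at h0
  obtain ⟨α, g₀, hg₀, hα⟩ := h0
  have hA : ∀ Δ : Finset Ω, α ∈ Δ → TT (fx G Δ) (cos 1 (fx G Δ)) ≤ WS (fx G Δ) univ :=
    fun Δ h => ih _ (lt_of_le_of_ne (fun g hg => hg.1) fun e => hα ((e.ge hg₀).2 α h))
  set S := orb G α with hS
  set N := fx G S with hN
  set D := fx G {α} with hD
  set X := (cos 1 G).filter fun g => g • α ≠ α with hX
  have hNG : N ≤ G := fun g hg => hg.1
  have hDG : D ≤ G := fun g hg => hg.1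
  have hDα : ∀ d ∈ D, d • α = α := fun d hd => hd.2 α (mem_singleton_self α)
  have hmem : ∀ {L : Subgroup Γ} {g : Γ}, g ∈ cos 1 L ↔ g ∈ L := by simp [mem_cos]
  have h1 : TT G (cos 1 G) = TT G (cos 1 N) + TT G (cos 1 G \ cos 1 N) := by
    rw [TT, ← sum_sdiff (fun g hg => hmem.2 (hNG (hmem.1 hg)) : cos 1 N ⊆ cos 1 G), add_comm]; rfl
  have h2 : TT G (cos 1 N) ≤ TT N (cos 1 N) :=
    TT_le_TT hNG (fun d hd x hx => hmem.2 (N.mul_mem (N.mul_mem hd (hmem.1 hx)) (N.inv_mem hd)))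
      fun y hy => ⟨1, G.one_mem, by simpa using hy⟩
  have h3 : TT G (cos 1 G \ cos 1 N) ≤ TT D X := by
    refine TT_le_TT hDG (fun d hd x hx => ?_) fun y hy => ?_
    · obtain ⟨h4, h5⟩ := mem_filter.1 hx
      refine mem_filter.2 ⟨hmem.2 (G.mul_mem (G.mul_mem hd.1 (hmem.1 h4)) (G.inv_mem hd.1)), ?_⟩
      rw [mul_smul, mul_smul, hDα _ (D.inv_mem hd)]
      intro e
      exact h5 (MulAction.injective d (e.trans (hDα d hd).symm))
    · obtain ⟨h4, h5⟩ := mem_sdiff.1 hy
      rw [hmem] at h4 h5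
      have h6 : ¬ ∀ δ ∈ S, y • δ = δ := fun h => h5 ⟨h4, h⟩
      push Not at h6
      obtain ⟨δ, hδ, h6⟩ := h6
      obtain ⟨d, hd, rfl⟩ := mem_orb.1 hδ
      refine ⟨d⁻¹, G.inv_mem hd, mem_filter.2 ⟨hmem.2 ?_, ?_⟩⟩
      · exact G.mul_mem (G.mul_mem (G.inv_mem hd) h4) (by simpa using hd)
      · rwa [inv_inv, mul_smul, mul_smul, Ne, inv_smul_eq_iff]
  have h4 : TT D X ≤ WS D (univ : Finset Ω) * AS D (S \ {α}) := by
    refine TT_le_sum hDα (fun x hx => ?_) (WS_pos _ _).le fun x hx => ?_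
    · obtain ⟨h4, h5⟩ := mem_filter.1 hx
      exact mem_sdiff.2 ⟨mem_orb.2 ⟨x, hmem.1 h4, rfl⟩, by simpa using h5⟩
    · obtain ⟨h4, h5⟩ := mem_filter.1 hx
      have h6 : (X.filter fun y => y • α = x • α) ⊆ cos x D := fun y hy => by
        obtain ⟨h6, h7⟩ := mem_filter.1 hy
        refine mem_cos.2 ⟨G.mul_mem (G.inv_mem (hmem.1 h4)) (hmem.1 (mem_filter.1 h6).1), ?_⟩
        simp [mul_smul, h7]
      refine (TT_mono _ h6).trans ?_
      rw [hD, ← fx_insert]
      exact TT_node G _ _ _ _ rfl (by simpa using h5) (hmem.1 h4) (by simp)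
        fun Δ' h => hA Δ' (h (by simp))
  have hS' := oInv_orb G α
  have hSc := (oInv_univ G).sdiff hS'
  have h5 : WS N (univ : Finset Ω) ≤ WS G (univ \ S) := by
    rw [WS_sdiff N (subset_univ S), WS_of_fixed (D := N) fun β hβ d hd => hd.2 β hβ, one_mul]
    exact hSc.WS_le hNG
  have hαS : {α} ⊆ S := singleton_subset_iff.2 (self_mem_orb G α)
  have h6 : WS D (univ : Finset Ω) ≤ WS D (S \ {α}) * WS G (univ \ S) := by
    rw [WS_sdiff D (subset_univ S), WS_sdiff D hαS, WS_of_fixed (by simpa using hDα), one_mul]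
    exact mul_le_mul_of_nonneg_left (hSc.WS_le hDG) (WS_pos _ _).le
  rcases ((hS'.mono hDG).sdiff (oInv_single hDα)).tinv with h7 | h7
  · have : g₀ • α ∈ S \ {α} := mem_sdiff.2 ⟨mem_orb.2 ⟨g₀, hg₀, rfl⟩, by simpa using hα⟩
    rw [h7] at this
    simp at this
  · have h8 := h7.root
    rw [← card_singleton α, card_sdiff_add_card_eq_card hαS, card_orb, ← WS_orb] at h8
    rw [WS_sdiff G (subset_univ S)]
    have h9 := mul_le_mul_of_nonneg_right h6 (AS_nonneg D (S \ {α}))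
    have h10 := mul_le_mul_of_nonneg_right h8 (WS_pos G (univ \ S)).le
    have h11 := hA S (self_mem_orb G α)
    linarith

/-- The class number of a permutation group of degree `n` is at most `ww n`. -/
theorem card_conjClasses_le_ww [FaithfulSMul Γ Ω] :
    (Nat.card (ConjClasses Γ) : ℝ) ≤ ww (Fintype.card Ω) := by
  rw [card_conjClasses_eq]
  exact (TT_le_WS (Ω := Ω) ⊤).trans (oInv_univ ⊤).WS_le_ww

end Orbits

/-- **Maróti**: a permutation group of degree `n ≥ 3` has at most `3 ^ ((n - 1) / 2)` classes. -/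
theorem card_conjClasses_sq_le {Γ Ω : Type*} [Group Γ] [Finite Γ] [MulAction Γ Ω] [Fintype Ω]
    [FaithfulSMul Γ Ω] (h : Fintype.card Ω ≠ 2) :
    Nat.card (ConjClasses Γ) ^ 2 ≤ 3 ^ (Fintype.card Ω - 1) := by
  have := Fintype.ofFinite Γ
  have h1 := card_conjClasses_le_ww (Γ := Γ) (Ω := Ω)
  rw [ww, if_neg h] at h1
  have h2 := pow_le_pow_left₀ (by positivity) h1 2
  rw [← pow_mul, mul_comm, pow_mul, sq cc, cc_sq] at h2
  exact_mod_cast h2

/-- A permutation group of degree `n` has at most `2 ^ (n - 1)` classes. -/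
theorem card_conjClasses_le_two_pow {Γ Ω : Type*} [Group Γ] [Finite Γ] [MulAction Γ Ω] [Fintype Ω]
    [FaithfulSMul Γ Ω] : Nat.card (ConjClasses Γ) ≤ 2 ^ (Fintype.card Ω - 1) := by
  have := Fintype.ofFinite Γ
  have h1 := card_conjClasses_le_ww (Γ := Γ) (Ω := Ω)
  have h2 : ww (Fintype.card Ω) ≤ 2 ^ (Fintype.card Ω - 1) := by
    rw [ww]
    split_ifs with h
    · rw [h]; norm_num
    · exact pow_le_pow_left₀ cc_pos.le (by linarith [cc_ub]) _
  exact_mod_cast h1.trans h2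

end Cfsg.Agent.Comb
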